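import Cfsg.Agent.H36.O8R.V7
import Cfsg.Agent.H466.O8R.Om7Data
import Cfsg.Agent.H292.O8R.RotAll

/-!
# S3691, row `PΩ⁺₈(q)`, SPIN: DATA-OM (helper36; parts: helper292, helper466, helper885)
-/

set_option autoImplicit false

namespace Cfsg.Agent.H36.O8R

open Module QuadraticMap Cfsg Cfsg.Agent.LieClassical.OrthCore Cfsg.Agent.LieClassical.OrthTrans
  Cfsg.Agent.LieClassical.QuadForms Cfsg.Agent.H466.O8R Cfsg.Agent.H953.O8R Cfsg.Agent.H36.Om7

variable {K : Type} [Field K]

theorem polar7 (x y : V7 K) : polar (oddForm 3 K) x y = 2 * x (.inl ()) * y (.inl ()) +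
    ∑ i : Fin 3, (x (.inr (.inl i)) * y (.inr (.inr i)) + y (.inr (.inl i)) * x (.inr (.inr i))) := by
  unfold polar
  simp only [odd_apply, Pi.add_apply, Fin.sum_univ_three]
  ring

/-- the standard frame -/
theorem fr7 : Fr (oddForm 3 K) (fun i => Pi.single (Sum.inr (Sum.inl i)) 1) (fun i => Pi.single (Sum.inr (Sum.inr i)) 1)
    (Pi.single (Sum.inl ()) 1) where
  u0 i := by simp [odd_apply]
  v0 i := by simp [odd_apply]
  w1 := by simp [odd_apply]
  uu i j := by simp [polar7]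
  vv i j := by simp [polar7]
  uv i j := by
    rw [polar7]
    fin_cases i <;> fin_cases j <;> simp [Pi.single_apply]
  uw i := by simp [polar7]
  vw i := by simp [polar7]
  span := by
    rw [eq_top_iff]
    intro x _
    have hx : x = ∑ j, x j • (Pi.single j 1 : V7 K) := by
      funext k
      simp [Finset.sum_apply, Pi.single_apply]
    rw [hx]
    refine Submodule.sum_mem _ fun j _ => Submodule.smul_mem _ _ (Submodule.subset_span ?_)
    rcases j with ⟨⟩ | j | j
    · exact Or.inr rfl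
    · exact Or.inl (Or.inl ⟨j, rfl⟩)
    · exact Or.inl (Or.inr ⟨j, rfl⟩)

/-- **DATA-OM** -/
theorem data_om {K : Type} [Field K] [Fintype K] {n : ℕ} (hodd : Odd (Fintype.card K)) (hq : 16 ≤ Fintype.card K)
    (hn : n * Nat.gcd 2 (Fintype.card K - 1) = Fintype.card K + 1) :
    ∃ (t : Fin 3 → POmega K (quadFormOdd 3 K)) (L : Fin 3 → Subgroup (POmega K (quadFormOdd 3 K)))
      (A B M : Subgroup (POmega K (quadFormOdd 3 K))) (s : POmega K (quadFormOdd 3 K)) (k : ℕ)
      (g : Fin 5 → POmega K (quadFormOdd 3 K)), DOm (POmega K (quadFormOdd 3 K)) n t L A B M s k g := by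
  have h2 : (2 : K) ≠ 0 := two_ne hodd
  obtain ⟨f, hf, hr⟩ := exists_hom7 (K := K) h2
  obtain ⟨s, g, hs, hs7, hsc, hg0, hg, hlink, htop⟩ := om_sg h2 (by omega) (nd_V7 h2) finrank_V7 (fr7 (K := K))
  obtain ⟨t, L, A, B, c, hc, ht, hL, htn, ht2, hLp, hcent, hmem, hconj, hA, hB, hAB, hAp, hBp, hAt, hBt, ht0, hM1, hM2⟩ :=
    Cfsg.Agent.H292.O8R.rot_all (fr7 (K := K)) finrank_V7 (good_V7 h2) hodd hq hn
  have hMX : H466.O8R.MM (oddForm 3 K) (fun i => Pi.single (Sum.inr (Sum.inl i)) 1) (fun i => Pi.single (Sum.inr (Sum.inr i)) 1)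
    (Pi.single (Sum.inl ()) 1) 0 0 ≤ ⁅O (oddForm 3 K), O (oddForm 3 K)⁆ := hM1.trans (hL 1)
  refine DOmIn.exists_dom (f := f) (X := ⁅O (oddForm 3 K), O (oddForm 3 K)⁆) (t := t) (L := L) (A := A) (B := B)
    (M := H466.O8R.MM (oddForm 3 K) (fun i => Pi.single (Sum.inr (Sum.inl i)) 1) (fun i => Pi.single (Sum.inr (Sum.inr i)) 1)
    (Pi.single (Sum.inl ()) 1) 0 0) (s := s) (k := 7) (g := g) ?_ hf hr
  exact
    { t_mem := ht
      L_le := hL
      M_le := hMX
      s_mem := hs
      g_mem := hg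
      pow := htn
      sq := ht2
      perf := hLp
      cent := hcent
      mem := hmem
      conj := fun i => ⟨c ^ (i : ℕ), pow_mem hc _, hconj i⟩
      A_le := hA
      B_le := hB
      comm := hAB
      A_perf := hAp
      B_perf := hBp
      A_top := hAt
      B_top := hBt
      M_perf := M_perf h2 (by omega) (nd_V7 h2) (fr7 (K := K))
      t_zero := ht0
      le₁ := hM1
      le₂ := hM2
      M_top := fun N h1 h3 h4 => M_top h2 (by omega) (nd_V7 h2) (fr7 (K := K)) h1 h3 h4 (ht2 0)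
      odd := by decide
      s_pow := hs7
      s_comm := hsc
      g_zero := hg0
      link := hlink
      top := le_antisymm (iSup_le fun i => by
        rintro _ ⟨x, hx, rfl⟩
        exact mul_mem (mul_mem (hg i) (hMX hx)) (inv_mem (hg i))) htop }

end Cfsg.Agent.H36.O8R
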