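import Cfsg.Agent.H953.O8R.Data

/-!
# S3691, row `PΩ⁺₈(q)`, SPIN: the data `DOm` inside a subgroup `X` of an ambient group, and the transport (helper36)
-/

set_option autoImplicit false

namespace Cfsg.Agent.H36.O8R

open Cfsg.Agent.H953.O8R

/-- the structure `DOm` (helper953) for the subgroup `X` of the ambient group `Γ` -/
structure DOmIn {Γ : Type*} [Group Γ] (X : Subgroup Γ) (n : ℕ) (t : Fin 3 → Γ) (L : Fin 3 → Subgroup Γ) (A B M : Subgroup Γ)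
    (s : Γ) (k : ℕ) (g : Fin 5 → Γ) : Prop where
  t_mem : ∀ i, t i ∈ X
  L_le : ∀ i, L i ≤ X
  M_le : M ≤ X
  s_mem : s ∈ X
  g_mem : ∀ i, g i ∈ X
  pow : ∀ i, t i ^ n = 1
  sq : ∀ i, t i ^ 2 ≠ 1
  perf : ∀ i, ⁅L i, L i⁆ = L i
  cent : ∀ i, ∀ x ∈ L i, x * t i = t i * x
  mem : ∀ i j, i ≠ j → t j ∈ L i
  conj : ∀ i, ∃ g ∈ X, t i = g * t 0 * g⁻¹ ∧ L i = cj g (L 0)
  A_le : A ≤ L 0
  B_le : B ≤ L 0
  comm : ∀ a ∈ A, ∀ b ∈ B, a * b = b * a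
  A_perf : ⁅A, A⁆ = A
  B_perf : ⁅B, B⁆ = B
  A_top : ∀ N : Subgroup Γ, N ≤ L 0 → (∀ g ∈ L 0, ∀ x ∈ N, g * x * g⁻¹ ∈ N) → A ≤ N → N = L 0
  B_top : ∀ N : Subgroup Γ, N ≤ L 0 → (∀ g ∈ L 0, ∀ x ∈ N, g * x * g⁻¹ ∈ N) → B ≤ N → N = L 0
  M_perf : ⁅M, M⁆ = M
  t_zero : t 0 ∈ M
  le₁ : M ≤ L 1
  le₂ : M ≤ L 2
  M_top : ∀ N : Subgroup Γ, N ≤ M → (∀ g ∈ M, ∀ x ∈ N, g * x * g⁻¹ ∈ N) → t 0 ∈ N → N = M
  odd : Odd k
  s_pow : s ^ k = 1
  s_comm : ∀ x ∈ M, ∀ y ∈ M, x * (s * y * s⁻¹) = (s * y * s⁻¹) * x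
  g_zero : g 0 = 1
  link : ∀ i : Fin 5, i ≠ 0 → ∃ j < i, ∃ x ∈ cj (g i) M, x ∈ cj (g j) M ∧ x ^ 2 ≠ 1
  top : ⨆ i, cj (g i) M = X

section

variable {G Γ : Type*} [Group G] [Group Γ] {f : G →* Γ}

theorem map_cj (g : G) (M : Subgroup G) : (cj g M).map f = cj (f g) (M.map f) := by
  ext x
  constructor
  · rintro ⟨_, ⟨m, hm, rfl⟩, rfl⟩
    refine ⟨f m, ⟨m, hm, rfl⟩, ?_⟩
    change f g * f m * (f g)⁻¹ = f (g * m * g⁻¹)
    rw [map_mul, map_mul, map_inv]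
  · rintro ⟨_, ⟨m, hm, rfl⟩, rfl⟩
    refine ⟨g * m * g⁻¹, ⟨m, hm, rfl⟩, ?_⟩
    change f (g * m * g⁻¹) = f g * f m * (f g)⁻¹
    rw [map_mul, map_mul, map_inv]

/-- normal subgroups -/
theorem top_of {L A : Subgroup G} (hf : Function.Injective f)
    (h : ∀ N : Subgroup Γ, N ≤ L.map f → (∀ g ∈ L.map f, ∀ x ∈ N, g * x * g⁻¹ ∈ N) → A.map f ≤ N → N = L.map f)
    (N : Subgroup G) (h1 : N ≤ L) (h2 : ∀ g ∈ L, ∀ x ∈ N, g * x * g⁻¹ ∈ N) (h3 : A ≤ N) : N = L := by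
  apply Subgroup.map_injective hf
  refine h _ (Subgroup.map_mono h1) ?_ (Subgroup.map_mono h3)
  rintro _ ⟨g, hg, rfl⟩ _ ⟨x, hx, rfl⟩
  exact ⟨g * x * g⁻¹, h2 g hg x hx, by rw [map_mul, map_mul, map_inv]⟩

theorem perf_of {L : Subgroup G} (hf : Function.Injective f) (h : ⁅L.map f, L.map f⁆ = L.map f) : ⁅L, L⁆ = L := by
  apply Subgroup.map_injective hf
  rw [Subgroup.map_commutator, h]

/-- **transport** -/
theorem DOmIn.exists_dom {X : Subgroup Γ} {n : ℕ} {t : Fin 3 → Γ} {L : Fin 3 → Subgroup Γ} {A B M : Subgroup Γ}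
    {s : Γ} {k : ℕ} {g : Fin 5 → Γ} (h : DOmIn X n t L A B M s k g) (hf : Function.Injective f) (hr : f.range = X) :
    ∃ (t' : Fin 3 → G) (L' : Fin 3 → Subgroup G) (A' B' M' : Subgroup G) (s' : G) (k' : ℕ) (g' : Fin 5 → G),
      DOm G n t' L' A' B' M' s' k' g' := by
  have hX : ∀ x ∈ X, ∃ y, f y = x := by
    intro x hx
    rw [← hr] at hx
    exact hx
  have hS : ∀ H : Subgroup Γ, H ≤ X → ∃ H' : Subgroup G, H'.map f = H := fun H hH =>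
    ⟨H.comap f, Subgroup.map_comap_eq_self (by rw [hr]; exact hH)⟩
  choose t' ht using fun i => hX (t i) (h.t_mem i)
  choose g' hg using fun i => hX (g i) (h.g_mem i)
  choose L' hL using fun i => hS (L i) (h.L_le i)
  obtain ⟨s', rfl⟩ := hX s h.s_mem
  obtain ⟨A', rfl⟩ := hS A (h.A_le.trans (h.L_le 0))
  obtain ⟨B', rfl⟩ := hS B (h.B_le.trans (h.L_le 0))
  obtain ⟨M', rfl⟩ := hS M h.M_le
  obtain rfl : (fun i => f (t' i)) = t := funext ht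
  obtain rfl : (fun i => f (g' i)) = g := funext hg
  obtain rfl : (fun i => (L' i).map f) = L := funext hL
  have hmem : ∀ {x : G} {H : Subgroup G}, f x ∈ H.map f → x ∈ H := fun {x H} hx => by
    obtain ⟨y, hy, e⟩ := hx
    rwa [← hf e]
  have hle : ∀ {H H' : Subgroup G}, H.map f ≤ H'.map f → H ≤ H' := fun {H H'} hH x hx =>
    hmem (hH ⟨x, hx, rfl⟩)
  refine ⟨t', L', A', B', M', s', k, g', ⟨?_, ?_, ?_, ?_, ?_, ?_, ?_, ?_, ?_, ?_, ?_, ?_, ?_⟩, ?_, ?_, ?_, ?_, ?_, ?_, ?_, ?_, ?_, ?_, ?_⟩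
  · intro i
    apply hf
    rw [map_pow, map_one]
    exact h.pow i
  · intro i hi
    apply h.sq i
    change f (t' i) ^ 2 = 1
    rw [← map_pow, hi, map_one]
  · exact fun i => perf_of hf (h.perf i)
  · intro i x hx
    apply hf
    rw [map_mul, map_mul]
    exact h.cent i (f x) ⟨x, hx, rfl⟩
  · exact fun i j hij => hmem (h.mem i j hij)
  · intro i
    obtain ⟨y, hy, h1, h2⟩ := h.conj i
    obtain ⟨y, rfl⟩ := hX y hy
    refine ⟨y, hf ?_, Subgroup.map_injective hf ?_⟩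
    · rw [map_mul, map_mul, map_inv]
      exact h1
    · rw [map_cj]
      exact h2
  · exact hle h.A_le
  · exact hle h.B_le
  · intro a ha b hb
    apply hf
    rw [map_mul, map_mul]
    exact h.comm _ ⟨a, ha, rfl⟩ _ ⟨b, hb, rfl⟩
  · exact perf_of hf h.A_perf
  · exact perf_of hf h.B_perf
  · exact top_of hf h.A_top
  · exact top_of hf h.B_top
  · exact perf_of hf h.M_perf
  · exact hmem h.t_zero
  · exact hle h.le₁
  · exact hle h.le₂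
  · intro N h1 h2 h3
    apply Subgroup.map_injective hf
    refine h.M_top _ (Subgroup.map_mono h1) ?_ ⟨_, h3, rfl⟩
    rintro _ ⟨g, hg, rfl⟩ _ ⟨x, hx, rfl⟩
    exact ⟨g * x * g⁻¹, h2 g hg x hx, by rw [map_mul, map_mul, map_inv]⟩
  · exact h.odd
  · apply hf
    rw [map_pow, map_one]
    exact h.s_pow
  · intro x hx y hy
    apply hf
    have := h.s_comm _ ⟨x, hx, rfl⟩ _ ⟨y, hy, rfl⟩
    simpa only [map_mul, map_inv] using this
  · apply hf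
    rw [map_one]
    exact h.g_zero
  · intro i hi
    obtain ⟨j, hj, x, hx, hx', h2⟩ := h.link i hi
    change x ∈ cj (f (g' i)) (M'.map f) at hx
    change x ∈ cj (f (g' j)) (M'.map f) at hx'
    rw [← map_cj] at hx hx'
    obtain ⟨y, hy, rfl⟩ := hx
    refine ⟨j, hj, y, hy, hmem hx', fun h3 => h2 ?_⟩
    rw [← map_pow, h3, map_one]
  · apply Subgroup.map_injective hf
    rw [Subgroup.map_iSup, ← MonoidHom.range_eq_map, hr, ← h.top]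
    congr 1
    funext i
    exact map_cj (g' i) M'

end

end Cfsg.Agent.H36.O8R
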