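import Cfsg.Agent.LieClassical.OmegaCenter
import Cfsg.Agent.LieClassical.OrthFinite
import Cfsg.Agent.LieClassical.QuadForms

/-!
# S3691, row `PΩ⁺₈(q)`, SPIN: `PΩ₇(q) = Ω₇(q)` as a group of linear maps (helper36)
-/

set_option autoImplicit false

namespace Cfsg.Agent.H36.O8R

open Cfsg QuadraticMap Cfsg.Agent.LieClassical.OrthCore Cfsg.Agent.LieClassical.OrthFinite

variable {F : Type} [Field F] {ι : Type} [Fintype ι] [DecidableEq ι]

/-- in odd dimension the centre of `Ω` is trivial -/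
theorem center_bot (h2 : (2 : F) ≠ 0) (Q : QuadraticForm F (ι → F)) (hQ : (polarBilin Q).Nondegenerate)
    (hn : 3 ≤ Fintype.card ι) (hodd : Odd (Fintype.card ι)) (hs : ∃ u : ι → F, u ≠ 0 ∧ Q u = 0) :
    Subgroup.center (Omega F ⇑Q) = ⊥ := by
  rw [eq_bot_iff]
  intro g hg
  rw [Subgroup.mem_bot]
  rcases (LieClassical.OmegaCenter.mem_center_omega_iff Q hQ hn hs g).1 hg with h | h
  · exact LieClassical.OmegaCenter.omega_ext h
  · exfalso
    let d : isometryGroup F ⇑Q →* Fˣ := (Matrix.GeneralLinearGroup.det (n := ι) (R := F)).comp (isometryGroup F ⇑Q).subtype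
    have h1 : (g : isometryGroup F ⇑Q) ∈ d.ker := Abelianization.commutator_subset_ker d g.2
    have h3 : Matrix.det (LieClassical.OmegaCenter.omegaMat g) = 1 := congrArg Units.val (MonoidHom.mem_ker.1 h1)
    rw [h, Matrix.det_neg, Matrix.det_one, mul_one, hodd.neg_one_pow] at h3
    apply h2
    linear_combination -h3

/-- `PΩ(Q)` as a group of linear maps, when the centre is trivial -/
theorem exists_hom (Q : QuadraticForm F (ι → F)) (hc : Subgroup.center (Omega F ⇑Q) = ⊥) :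
    ∃ f : POmega F ⇑Q →* ((ι → F) ≃ₗ[F] (ι → F)), Function.Injective f ∧ f.range = ⁅O Q, O Q⁆ := by
  let ψ : Omega F ⇑Q →* ((ι → F) ≃ₗ[F] (ι → F)) := (Subgroup.subtype _).comp (omegaEquiv Q).toMonoidHom
  have hψ : Function.Injective ψ := (Subgroup.subtype_injective _).comp (omegaEquiv Q).injective
  let f : POmega F ⇑Q →* ((ι → F) ≃ₗ[F] (ι → F)) := QuotientGroup.lift (Subgroup.center (Omega F ⇑Q)) ψ (by
    intro x hx
    rw [hc, Subgroup.mem_bot] at hx
    rw [hx]
    exact one_mem _)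
  have hf : ∀ x : Omega F ⇑Q, f (QuotientGroup.mk' _ x) = ψ x := fun x => rfl
  refine ⟨f, ?_, ?_⟩
  · rw [injective_iff_map_eq_one]
    intro y hy
    obtain ⟨x, rfl⟩ := QuotientGroup.mk'_surjective _ y
    rw [hf] at hy
    rw [(injective_iff_map_eq_one ψ).1 hψ x hy, map_one]
  · ext y
    constructor
    · rintro ⟨x, rfl⟩
      obtain ⟨x, rfl⟩ := QuotientGroup.mk'_surjective _ x
      exact (omegaEquiv Q x).2
    · intro hy
      obtain ⟨x, hx⟩ := (omegaEquiv Q).surjective ⟨y, hy⟩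
      exact ⟨QuotientGroup.mk' _ x, congrArg Subtype.val hx⟩

end Cfsg.Agent.H36.O8R
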