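import Cfsg.Agent.H36.O8R.DomIn
import Cfsg.Agent.H36.O8R.OmHom
import Cfsg.Agent.H466.O8R.PP
import Cfsg.Agent.LieClassical.OrthForms
import Cfsg.Agent.H955.QSpace

/-!
# S3691, row `PΩ⁺₈(q)`, SPIN: the space of dimension seven (helper36)

`V7 K`, the vectors `vw` (norm `1`), `va i` (norm `1`), `vb i` (norm `-1`), the group `MM K = Ω(⟨w, a 0, b 0⟩)`.
-/

set_option autoImplicit false

namespace Cfsg.Agent.H36.O8R

open Module QuadraticMap Cfsg Cfsg.Agent.LieClassical.OrthCore Cfsg.Agent.LieClassical.OrthTrans Cfsg.Agent.LieClassical.QuadForms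
  Cfsg.Agent.H466.O8R Cfsg.Agent.H953.O8R

/-- the space of dimension seven -/
abbrev V7 (K : Type) : Type := Unit ⊕ (Fin 3 ⊕ Fin 3) → K

variable {K : Type} [Field K]

/-- norm `1` -/
def vw (K : Type) [Field K] : V7 K := Pi.single (Sum.inl ()) 1

/-- norm `1` -/
def va (K : Type) [Field K] (i : Fin 3) : V7 K := Pi.single (Sum.inr (Sum.inl i)) 1 + Pi.single (Sum.inr (Sum.inr i)) 1

/-- norm `-1` -/
def vb (K : Type) [Field K] (i : Fin 3) : V7 K := Pi.single (Sum.inr (Sum.inl i)) 1 - Pi.single (Sum.inr (Sum.inr i)) 1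

/-- `M = Ω(⟨w, a 0, b 0⟩)` -/
def MM (K : Type) [Field K] : Subgroup (V7 K ≃ₗ[K] V7 K) := Om (oddForm 3 K) (pp (oddForm 3 K) ![vw K, va K 0, vb K 0])

theorem odd_apply (v : V7 K) : oddForm 3 K v = v (.inl ()) ^ 2 + ∑ i : Fin 3, v (.inr (.inl i)) * v (.inr (.inr i)) := by
  rw [coe_oddForm]
  rfl

theorem finrank_V7 : finrank K (V7 K) = 7 := by
  rw [Module.finrank_fintype_fun_eq_card]
  simp

theorem nd_V7 (h2 : (2 : K) ≠ 0) : Nondeg (oddForm 3 K) := by
  have h := LieClassical.OrthForms.nondeg_oddForm (m := 3) (F := K) h2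
  have e : LieClassical.OrthForms.oddForm 3 K = oddForm 3 K :=
    DFunLike.coe_injective ((LieClassical.OrthForms.coe_oddForm (m := 3) (F := K)).trans (coe_oddForm 3).symm)
  rwa [e] at h

theorem two_ne {K : Type} [Field K] [Fintype K] (hodd : Odd (Fintype.card K)) : (2 : K) ≠ 0 := by
  intro h2
  have hchar : CharP K 2 := CharTwo.of_one_ne_zero_of_two_eq_zero one_ne_zero h2
  have h1 := FiniteField.even_card_of_char_two (F := K) (ringChar.eq K 2)
  rcases hodd with ⟨m, hm⟩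
  omega

theorem good_V7 [Finite K] (h2 : (2 : K) ≠ 0) : Good (oddForm 3 K) :=
  LieClassical.OrthFinite.good_of_finite (nd_V7 h2) (by rw [finrank_V7]; norm_num)

/-- `PΩ₇(q)` as a group of linear maps -/
theorem exists_hom7 (h2 : (2 : K) ≠ 0) : ∃ f : POmega K (quadFormOdd 3 K) →* (V7 K ≃ₗ[K] V7 K),
    Function.Injective f ∧ f.range = ⁅O (oddForm 3 K), O (oddForm 3 K)⁆ := by
  rw [← coe_oddForm]
  refine exists_hom _ (center_bot h2 _ (Cfsg.Agent.H955.nondegenerate_of_nondeg (nd_V7 h2)) (by simp) (by simp; decide) ?_)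
  refine ⟨Pi.single (Sum.inr (Sum.inl 0)) 1, ?_, ?_⟩
  · intro h
    have := congrFun h (Sum.inr (Sum.inl 0))
    simp at this
  · rw [odd_apply]
    simp

end Cfsg.Agent.H36.O8R
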